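import Groth.Agent.FlatA.ZMTFactor
import Groth.Agent.Picfga.FibreCard
import Groth.Agent.Flat2D.GeomFib
import Mathlib.Data.Set.Card.Arithmetic

/-!
# Geometric fibres of locally quasi-finite morphisms have a bounded number of points
-/

set_option autoImplicit false
universe u

open AlgebraicGeometry CategoryTheory Limits TensorProduct

namespace Groth.Agent.Old.H12.QfBound

/-- All base changes of `f` to spectra of fields have at most `n` points. -/
def Bdd {X Y : Scheme.{u}} (f : X ⟶ Y) (n : ℕ) : Prop :=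
  ∀ (K : Type u) [Field K] (z : Spec (.of K) ⟶ Y) (Z : Scheme.{u}) (a : Z ⟶ X) (b : Z ⟶ Spec (.of K)),
    IsPullback a b f z → ENat.card Z ≤ n

theorem card_le_of_algebra (A B K : Type u) [CommRing A] [CommRing B] [Field K] [Algebra A B] [Algebra A K]
    (n : ℕ) (s : (Fin n → A) →ₗ[A] B) (hs : Function.Surjective s) :
    ENat.card (PrimeSpectrum (K ⊗[A] B)) ≤ n := by
  let t : (K ⊗[A] (Fin n → A)) →ₗ[K] (K ⊗[A] B) := s.baseChange K
  have ht : Function.Surjective t := LinearMap.lTensor_surjective K hs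
  let e : (K ⊗[A] (Fin n → A)) ≃ₗ[K] (Fin n → K) := TensorProduct.piScalarRight A K K (Fin n)
  let t' : (Fin n → K) →ₗ[K] (K ⊗[A] B) := t ∘ₗ e.symm.toLinearMap
  have ht' : Function.Surjective t' := ht.comp e.symm.surjective
  have h1 : Module.Finite K (K ⊗[A] B) := Module.Finite.of_surjective t' ht'
  have h2 : Module.finrank K (K ⊗[A] B) ≤ n := by
    refine (LinearMap.finrank_le_finrank_of_surjective ht').trans ?_
    simp
  obtain ⟨h3, h4⟩ := Groth.Agent.Picfga.FibreCard.card_primeSpectrum_le K (K ⊗[A] B)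
  have := Fintype.ofFinite (PrimeSpectrum (K ⊗[A] B))
  rw [ENat.card_eq_coe_fintype_card, ← Nat.card_eq_fintype_card]
  exact_mod_cast h4.trans h2

/-- A finite morphism to an affine scheme has a bounded number of geometric points. -/
theorem bdd_of_isFinite {X Y : Scheme.{u}} (f : X ⟶ Y) [IsAffine Y] [IsFinite f] : ∃ n, Bdd f n := by
  have hX : IsAffine X := isAffine_of_isAffineHom f
  have h1 : (f.appTop).hom.Finite := by
    have : IsFinite (Spec.map f.appTop) := by
      have : Spec.map f.appTop = X.isoSpec.inv ≫ f ≫ Y.isoSpec.hom := by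
        rw [Iso.eq_inv_comp, Scheme.isoSpec_hom_naturality]
      rw [this]
      infer_instance
    exact (IsFinite.SpecMap_iff _).mp this
  let A := Γ(Y, ⊤)
  let B := Γ(X, ⊤)
  let : Algebra A B := f.appTop.hom.toAlgebra
  have hfin : Module.Finite A B := h1
  obtain ⟨n, s, hs⟩ := Module.Finite.exists_fin' A B
  refine ⟨n, ?_⟩
  intro K _ z Z a b h
  obtain ⟨ψ, hψ⟩ := Spec.map_surjective (z ≫ Y.isoSpec.hom)
  let : Algebra A K := ψ.hom.toAlgebra
  have h2 : IsPullback b (a ≫ X.isoSpec.hom) (Spec.map (CommRingCat.ofHom (algebraMap A K))) 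
      (Spec.map (CommRingCat.ofHom (algebraMap A B))) := by
    have h3 : IsPullback (a ≫ X.isoSpec.hom) b (Spec.map f.appTop) (z ≫ Y.isoSpec.hom) := by
      refine IsPullback.of_iso h (Iso.refl _) X.isoSpec (Iso.refl _) Y.isoSpec ?_ ?_ ?_ ?_
      all_goals simp [Scheme.isoSpec_hom_naturality]
    rw [← hψ] at h3
    exact h3.flip
  let e : Z ≅ Spec (.of (K ⊗[A] B)) := h2.isoPullback ≪≫ pullbackSpecIso A K B
  have e' : Z ≃ PrimeSpectrum (K ⊗[A] B) := e.hom.homeomorph.toEquiv
  rw [ENat.card_congr e']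
  exact card_le_of_algebra A B K n s hs

theorem Bdd.comp_left {X T Y : Scheme.{u}} {g : T ⟶ Y} {n : ℕ} (hg : Bdd g n) (j : X ⟶ T) [IsOpenImmersion j] :
    Bdd (j ≫ g) n := by
  intro K _ z Z a b h
  have h1 := IsPullback.of_hasPullback g z
  have hw : (a ≫ j) ≫ g = b ≫ z := by rw [Category.assoc, h.w]
  let p : Z ⟶ pullback g z := pullback.lift (a ≫ j) b hw
  have h2 : IsPullback p a (pullback.fst g z) j := by
    refine IsPullback.of_right (h₁₂ := pullback.snd g z) (h₂₂ := g) (v₁₃ := z) ?_ ?_ h1.flip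
    · have : p ≫ pullback.snd g z = b := pullback.lift_snd _ _ _
      rw [this]
      exact h.flip
    · exact pullback.lift_fst _ _ _
  have h3 : IsOpenImmersion p := MorphismProperty.of_isPullback h2.flip inferInstance
  exact (ENat.card_le_card_of_injective p.isOpenEmbedding.injective).trans (hg K z _ _ _ h1)

theorem Bdd.comp_right {X V Y : Scheme.{u}} {g : X ⟶ V} {n : ℕ} (hg : Bdd g n) (i : V ⟶ Y) [IsOpenImmersion i] :
    Bdd (g ≫ i) n := by
  intro K _ z Z a b h
  by_cases hZ : IsEmpty Z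
  · have : ENat.card Z ≤ 0 := by
      rw [nonpos_iff_eq_zero]
      exact (ENat.card_eq_zero_iff_empty _).mpr hZ
    exact this.trans (by simp)
  · rw [not_isEmpty_iff] at hZ
    obtain ⟨w⟩ := hZ
    have h1 : Set.range z ⊆ Set.range i := by
      rintro _ ⟨t, rfl⟩
      have : t = b w := Subsingleton.elim _ _
      subst this
      refine ⟨g (a w), ?_⟩
      rw [← Scheme.Hom.comp_apply, ← Scheme.Hom.comp_apply, ← Scheme.Hom.comp_apply, h.w]
    let z' := IsOpenImmersion.lift i z h1
    have hz' : z' ≫ i = z := IsOpenImmersion.lift_fac _ _ _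
    have h2 : IsPullback a b g z' := by
      have hw : a ≫ g = b ≫ z' := by
        rw [← cancel_mono i, Category.assoc, Category.assoc, hz', h.w]
      refine ⟨⟨hw⟩, ⟨PullbackCone.IsLimit.mk _ (fun c => h.lift c.fst c.snd ?_) (fun c => ?_) (fun c => ?_)
        (fun c m h3 h4 => ?_)⟩⟩
      · rw [← hz', ← Category.assoc, ← Category.assoc, c.condition]
      · exact h.lift_fst _ _ _
      · exact h.lift_snd _ _ _
      · refine h.hom_ext ?_ ?_
        · rw [h3, h.lift_fst]
        · rw [h4, h.lift_snd]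
    exact hg K z' Z a b h2

theorem bdd_of_cover {X Y : Scheme.{u}} (f : X ⟶ Y) {ι : Type*} (s : Finset ι) (U : ι → X.Opens)
    (hU : ∀ x : X, ∃ i ∈ s, x ∈ U i) (n : ι → ℕ)
    (hn : ∀ i, Bdd ((U i).ι ≫ f) (n i)) : Bdd f (∑ i ∈ s, n i) := by
  intro K _ z Z a b h
  have h1 : (Set.univ : Set Z) = ⋃ i ∈ s, (a ⁻¹ᵁ (U i) : Set Z) := by
    ext w
    obtain ⟨i, hi, hw⟩ := hU (a w)
    simp only [Set.mem_univ, Set.mem_iUnion, true_iff]
    exact ⟨i, hi, hw⟩
  rw [← Set.encard_univ, h1]
  refine (Finset.set_encard_biUnion_le _ _).trans ?_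
  push_cast
  refine Finset.sum_le_sum fun i _ => ?_
  exact hn i K z (a ⁻¹ᵁ U i) (a ∣_ U i) ((a ⁻¹ᵁ U i).ι ≫ b)
    ((isPullback_morphismRestrict a (U i)).flip.paste_horiz h.flip).flip

/-- **Boundedness of the number of geometric points in the fibres of a locally quasi-finite morphism.** -/
theorem exists_bdd {X Y : Scheme.{u}} (f : X ⟶ Y) [LocallyQuasiFinite f] [LocallyOfFiniteType f]
    [CompactSpace X] : ∃ n, Bdd f n := by
  have h1 : ∀ x : X, ∃ (U : X.Opens) (n : ℕ), x ∈ U ∧ Bdd (U.ι ≫ f) n := by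
    intro x
    obtain ⟨_, ⟨V : Y.Opens, hV, rfl⟩, hxV, -⟩ := Y.isBasis_affineOpens.exists_subset_of_mem_open
      (Set.mem_univ (f x)) isOpen_univ
    obtain ⟨_, ⟨U : X.Opens, hU, rfl⟩, hxU, hUV⟩ := X.isBasis_affineOpens.exists_subset_of_mem_open
      (show x ∈ (f ⁻¹ᵁ V : Set X) from hxV) (f ⁻¹ᵁ V).isOpen
    have hUV' : U ≤ f ⁻¹ᵁ V := hUV
    have : IsAffine U := hU
    have : IsAffine V := hV
    let g := f.resLE V U hUV'
    have : IsAffineHom g := isAffineHom_of_isAffine _
    obtain ⟨T, j, π, h1, h2, h3, h4, h5⟩ := Groth.Agent.FlatA.ZMTFactor.exists_factor_of_isAffine g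
    obtain ⟨n, hn⟩ := bdd_of_isFinite π
    refine ⟨U, n, hxU, ?_⟩
    have h6 := (hn.comp_left j).comp_right V.ι
    rwa [h5, Scheme.Hom.resLE_comp_ι] at h6
  choose U n hx hn using h1
  obtain ⟨s, hs⟩ := isCompact_univ.elim_finite_subcover (fun x => (U x : Set X)) (fun x => (U x).isOpen)
    (fun x _ => Set.mem_iUnion.mpr ⟨x, hx x⟩)
  refine ⟨_, bdd_of_cover f s U (fun x => ?_) n hn⟩
  have := hs (Set.mem_univ x)
  simp only [Set.mem_iUnion] at this
  obtain ⟨i, hi, hxi⟩ := this
  exact ⟨i, hi, hxi⟩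

theorem card_connectedComponents_le (Z : Type*) [TopologicalSpace Z] :
    ENat.card (_root_.ConnectedComponents Z) ≤ ENat.card Z :=
  ENat.card_le_card_of_injective (Function.injective_surjInv ConnectedComponents.surjective_coe)

theorem card_connectedComponents_of_discrete (Z : Type*) [TopologicalSpace Z] [DiscreteTopology Z] :
    ENat.card (_root_.ConnectedComponents Z) = ENat.card Z := by
  refine (ENat.card_congr (Equiv.ofBijective (ConnectedComponents.mk : Z → _) ⟨?_, ConnectedComponents.surjective_coe⟩)).symm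
  intro x y hxy
  have := ConnectedComponents.coe_eq_coe'.mp hxy
  rw [connectedComponent_eq_singleton] at this
  exact this

theorem encard_irreducibleComponents_of_discrete (Z : Type*) [TopologicalSpace Z] [DiscreteTopology Z] :
    (irreducibleComponents Z).encard = ENat.card Z := by
  have : irreducibleComponents Z = Set.range (fun x : Z => ({x} : Set Z)) := by
    ext s
    constructor
    · intro hs
      obtain ⟨x, hx⟩ := hs.1.1
      refine ⟨x, ?_⟩
      have h1 : s.Subsingleton := hs.1.2.isPreconnected.subsingleton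
      exact (h1.eq_singleton_of_mem hx).symm
    · rintro ⟨x, rfl⟩
      refine ⟨isIrreducible_singleton, fun t ht hxt => ?_⟩
      have h1 : t.Subsingleton := ht.2.isPreconnected.subsingleton
      rw [h1.eq_singleton_of_mem (hxt rfl)]
  rw [this, ← Set.image_univ, Set.InjOn.encard_image, Set.encard_univ]
  exact Set.singleton_injective.injOn

end Groth.Agent.Old.H12.QfBound
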